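import Mathlib
import Cfsg.Agent.H436.Ppd

/-!
# Additive maps commuting with an element of primitive prime order (helper372, S3938-OPLUS8 O6)
-/

set_option autoImplicit false

namespace Cfsg.Agent.H372.O8S

open Cfsg.Agent.H436

/-- fixed points of an additive map of prime order -/
theorem fix_or {W : Type*} [AddCommGroup W] [Finite W] {p r N j : ℕ} (hp : p.Prime) (hP : Prim p N r)
    (hW : Nat.card W = p ^ j) (hj : j ≤ N) (f : W →+ W) (hf : ∀ w, f^[r] w = w) :
    (∀ w, f w = w) ∨ (j = N ∧ ∀ w, f w = w → w = 0) := by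
  classical
  have := Fintype.ofFinite W
  have : Fact r.Prime := ⟨hP.prime⟩
  let g : Function.End W := (f : W → W)
  have hg : g ^ r ^ 1 = 1 := by
    rw [pow_one]
    funext w
    have h : ∀ n (w : W), (g ^ n) w = f^[n] w := by
      intro n
      induction n with
      | zero => intro w; rfl
      | succ n ih =>
        intro w
        rw [Function.iterate_succ_apply, ← ih, pow_succ]
        rfl
    rw [h]
    exact hf w
  have h1 := Equiv.Perm.card_fixedPoints_modEq hg
  let A : AddSubgroup W := (f - AddMonoidHom.id W).ker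
  have hA : ∀ w, w ∈ A ↔ f w = w := fun w => by
    rw [AddMonoidHom.mem_ker, AddMonoidHom.sub_apply, AddMonoidHom.id_apply, sub_eq_zero]
  have h2 : Fintype.card (Function.fixedPoints g) = Nat.card A := by
    rw [← Nat.card_eq_fintype_card]
    exact Nat.card_congr (Equiv.subtypeEquivRight fun w => (hA w).symm)
  rw [← Nat.card_eq_fintype_card, hW] at h1
  rw [h2] at h1
  obtain ⟨i, hi, hAi⟩ := (Nat.dvd_prime_pow hp).1 (hW ▸ A.card_addSubgroup_dvd_card)
  rw [hAi] at h1
  have h3 : r ∣ p ^ j - p ^ i := (Nat.modEq_iff_dvd' (Nat.pow_le_pow_right hp.pos hi)).1 h1.symm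
  have h4 : p ^ j - p ^ i = p ^ i * (p ^ (j - i) - 1) := by
    rw [Nat.mul_sub, mul_one, ← pow_add]
    congr 2
    omega
  rw [h4] at h3
  have h5 := (hP.dvd_iff (j - i)).1 ((hP.prime.dvd_mul.1 h3).resolve_left (hP.not_dvd_pow i))
  rcases Nat.eq_zero_or_pos (j - i) with h6 | h6
  · left
    have h7 : i = j := by omega
    have h8 : A = ⊤ := AddSubgroup.eq_top_of_card_eq A (by rw [hAi, hW, h7])
    intro w
    rw [← hA, h8]
    trivial
  · right
    have h7 := Nat.le_of_dvd h6 h5
    refine ⟨by omega, fun w hw => ?_⟩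
    have h8 : i = 0 := by omega
    rw [h8, pow_zero] at hAi
    have h9 := AddSubgroup.eq_bot_of_card_eq A hAi
    have h10 : w ∈ A := (hA w).2 hw
    rw [h9] at h10
    exact h10

section

variable {V : Type*} [AddCommGroup V] [Finite V] {p r N : ℕ} (hp : p.Prime) (hP : Prim p N r)
  (hV : Nat.card V = p ^ N) (X : V →+ V) (hX : ∀ v, X^[r] v = v) (hX1 : ∃ v, X v ≠ v)

include hp hP hV hX hX1

/-- invariant subgroups -/
theorem irr (A : AddSubgroup V) (hA : ∀ v ∈ A, X v ∈ A) : A = ⊥ ∨ A = ⊤ := by
  obtain ⟨j, hj, hAj⟩ := (Nat.dvd_prime_pow hp).1 (hV ▸ A.card_addSubgroup_dvd_card)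
  let f : A →+ A := (X.comp A.subtype).codRestrict A (fun a => hA a a.2)
  have hfi : ∀ n (a : A), ((f^[n] a : A) : V) = X^[n] a := by
    intro n
    induction n with
    | zero => intro a; rfl
    | succ n ih =>
      intro a
      rw [Function.iterate_succ_apply, Function.iterate_succ_apply, ih]
      rfl
  rcases fix_or hp hP hAj hj f (fun a => Subtype.ext (by rw [hfi, hX])) with h1 | ⟨h1, -⟩
  · left
    rcases fix_or hp hP hV le_rfl X hX with h2 | ⟨-, h2⟩
    · obtain ⟨v, hv⟩ := hX1
      exact absurd (h2 v) hv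
    · rw [eq_bot_iff]
      intro v hv
      exact h2 v (congrArg Subtype.val (h1 ⟨v, hv⟩))
  · right
    exact AddSubgroup.eq_top_of_card_eq A (by rw [hAj, hV, h1])

/-- an additive map commuting with `X` and vanishing at a nonzero vector is zero -/
theorem eq_zero_of_comm {f : V →+ V} (hf : ∀ v, X (f v) = f (X v)) {v : V} (hv : v ≠ 0) (h : f v = 0) :
    ∀ w, f w = 0 := by
  have hk : ∀ w ∈ AddMonoidHom.ker f, X w ∈ AddMonoidHom.ker f := by
    intro w hw
    rw [AddMonoidHom.mem_ker] at hw ⊢
    rw [← hf, hw, map_zero]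
  rcases irr hp hP hV X hX hX1 _ hk with h1 | h1
  · exfalso
    have h2 : v ∈ AddMonoidHom.ker f := h
    rw [h1] at h2
    exact hv h2
  · intro w
    have h2 : w ∈ AddMonoidHom.ker f := by rw [h1]; trivial
    exact h2

omit [Finite V] hp hP hV hX hX1 in
theorem mem_cent (f : V →+ V) (hf : ∀ v, X (f v) = f (X v)) :
    (show AddMonoid.End V from f) ∈ Subring.centralizer ({(show AddMonoid.End V from X)} : Set (AddMonoid.End V)) := by
  rw [Subring.mem_centralizer_iff]
  rintro _ rfl
  exact AddMonoidHom.ext hf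

theorem isDomain_centralizer :
    IsDomain (Subring.centralizer ({(show AddMonoid.End V from X)} : Set (AddMonoid.End V))) := by
  have hne : Nontrivial (Subring.centralizer ({(show AddMonoid.End V from X)} : Set (AddMonoid.End V))) := by
    refine ⟨0, 1, fun h => ?_⟩
    have h1 : (0 : AddMonoid.End V) = 1 := congrArg Subtype.val h
    obtain ⟨v, hv⟩ := hX1
    apply hv
    have h2 : ∀ w : V, (0 : V) = w := fun w => DFunLike.congr_fun h1 w
    rw [← h2 (X v), ← h2 v]
  have hz : NoZeroDivisors (Subring.centralizer ({(show AddMonoid.End V from X)} : Set (AddMonoid.End V))) := by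
    refine ⟨fun {f g} h => ?_⟩
    have hgc : ∀ v, X ((show V →+ V from g.1) v) = (show V →+ V from g.1) (X v) := fun v =>
      DFunLike.congr_fun (Subring.mem_centralizer_iff.1 g.2 _ rfl) v
    have hg : ∀ v ∈ (show V →+ V from g.1).range, X v ∈ (show V →+ V from g.1).range := by
      rintro _ ⟨v, rfl⟩
      exact ⟨X v, (hgc v).symm⟩
    rcases irr hp hP hV X hX hX1 _ hg with h1 | h1
    · right
      apply Subtype.ext
      apply AddMonoidHom.ext
      intro v
      have h2 : (show V →+ V from g.1) v ∈ (show V →+ V from g.1).range := ⟨v, rfl⟩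
      rw [h1] at h2
      exact h2
    · left
      apply Subtype.ext
      apply AddMonoidHom.ext
      intro v
      have h2 : v ∈ (show V →+ V from g.1).range := by rw [h1]; trivial
      obtain ⟨w, rfl⟩ := h2
      exact DFunLike.congr_fun (congrArg Subtype.val h) w
  exact NoZeroDivisors.to_isDomain _

theorem isField_centralizer :
    IsField (Subring.centralizer ({(show AddMonoid.End V from X)} : Set (AddMonoid.End V))) := by
  have := isDomain_centralizer hp hP hV X hX hX1
  have hF : Finite (AddMonoid.End V) := by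
    have : Finite (V → V) := inferInstance
    exact Finite.of_injective (fun f : AddMonoid.End V => (f : V → V)) DFunLike.coe_injective
  exact Finite.isDomain_to_isField _

/-- **additive maps commuting with `X` commute** -/
theorem comm_of_comm {f g : V →+ V} (hf : ∀ v, X (f v) = f (X v)) (hg : ∀ v, X (g v) = g (X v)) (v : V) :
    f (g v) = g (f v) := by
  have h1 := isField_centralizer hp hP hV X hX hX1
  exact DFunLike.congr_fun (congrArg Subtype.val (h1.mul_comm ⟨_, mem_cent X f hf⟩ ⟨_, mem_cent X g hg⟩)) v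

end

/-- in a finite field containing a field `K` with `q` elements: `z ^ q = z` only for `z ∈ K` -/
theorem mem_range_of_pow {K E : Type*} [Field K] [Fintype K] [Field E] (s : K →+* E) {z : E}
    (hz : z ^ Fintype.card K = z) : ∃ τ : K, s τ = z := by
  classical
  by_contra hcon
  push Not at hcon
  have hq : 1 < Fintype.card K := Fintype.one_lt_card
  let P : Polynomial E := Polynomial.X ^ Fintype.card K - Polynomial.X
  have hP0 : P ≠ 0 := FiniteField.X_pow_card_sub_X_ne_zero E hq
  let Z : Finset E := insert z (Finset.univ.image s)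
  have hZ : Z.card = Fintype.card K + 1 := by
    rw [Finset.card_insert_of_notMem, Finset.card_image_of_injective _ s.injective, Finset.card_univ]
    rw [Finset.mem_image]
    rintro ⟨τ, -, h⟩
    exact hcon τ h
  have hsub : Z.val ⊆ P.roots := by
    intro w hw
    rw [Polynomial.mem_roots hP0, Polynomial.IsRoot.def, Polynomial.eval_sub, Polynomial.eval_pow, Polynomial.eval_X, sub_eq_zero]
    rcases Finset.mem_insert.1 hw with rfl | h
    · exact hz
    · obtain ⟨τ, -, rfl⟩ := Finset.mem_image.1 h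
      rw [← map_pow, FiniteField.pow_card]
  have h1 := Polynomial.card_le_degree_of_subset_roots hsub
  rw [hZ, FiniteField.X_pow_card_sub_X_natDegree_eq E hq] at h1
  omega

/-- the same in a ring which is a field -/
theorem trace_aux {K C : Type*} [Field K] [Fintype K] [Ring C] (hC : IsField C) (s : K →+* C) {a : ℕ}
    (hK : Fintype.card K = 2 ^ a) {t : C} (ht : t ^ (2 ^ a + 1) = 1) : ∃ τ : K, t * t = s τ * t + 1 := by
  letI : Field C := hC.toField
  have h2K : (2 : K) = 0 := by
    have : CharP K 2 := by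
      obtain ⟨n, hn⟩ := CharP.exists K
      have hnp : n.Prime := CharP.char_is_prime K n
      haveI : Fact n.Prime := ⟨hnp⟩
      obtain ⟨f, -, hf⟩ := FiniteField.card K n
      rw [hK] at hf
      have h1 : n ∣ 2 ^ a := by rw [hf]; exact dvd_pow_self n f.ne_zero
      rw [(Nat.prime_dvd_prime_iff_eq hnp Nat.prime_two).1 (hnp.dvd_of_dvd_pow h1)] at hn
      exact hn
    exact CharP.cast_eq_zero K 2
  have h2 : (2 : C) = 0 := by
    have := congrArg s h2K
    rwa [map_ofNat, map_zero] at this
  haveI : CharP C 2 := CharTwo.of_one_ne_zero_of_two_eq_zero one_ne_zero h2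
  haveI : ExpChar C 2 := ExpChar.prime Nat.prime_two
  have h3 : (t + t ^ (2 ^ a)) ^ Fintype.card K = t + t ^ (2 ^ a) := by
    rw [hK, add_pow_expChar_pow, ← pow_mul]
    have h4 : t ^ (2 ^ a * 2 ^ a) = t := by
      have h5 : 2 ^ a * 2 ^ a = (2 ^ a + 1) * (2 ^ a - 1) + 1 := by
        obtain ⟨k, hk⟩ : ∃ k, 2 ^ a = k + 1 := ⟨2 ^ a - 1, by have := Nat.one_le_two_pow (n := a); omega⟩
        rw [hk, Nat.add_sub_cancel]
        ring
      rw [h5, pow_succ, pow_mul, ht, one_pow, one_mul]
    rw [h4, add_comm]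
  obtain ⟨τ, hτ⟩ := mem_range_of_pow s h3
  refine ⟨τ, ?_⟩
  rw [hτ, add_mul, ← pow_succ, ht, add_assoc, CharTwo.add_self_eq_zero, add_zero]

/-- **The trace**: `K` a field of order `q = 2 ^ a`, `T` linear, commuting with `X`, `T ^ (q + 1) = 1`. Then `T + T⁻¹` is a scalar -/
theorem trace {K V : Type*} [Field K] [Fintype K] [AddCommGroup V] [Module K V] [Finite V] {a r N : ℕ}
    (hP : Prim 2 N r) (hK : Fintype.card K = 2 ^ a)
    (hV : Nat.card V = 2 ^ N) (X : V →ₗ[K] V) (hX : ∀ v, X^[r] v = v) (hX1 : ∃ v, X v ≠ v)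
    (T : V →ₗ[K] V) (hT : ∀ v, X (T v) = T (X v)) (hTq : ∀ v, T^[2 ^ a + 1] v = v) :
    ∃ τ : K, ∀ v, T (T v) = τ • T v + v := by
  classical
  have hf := isField_centralizer Nat.prime_two hP hV X.toAddMonoidHom hX hX1
  let C := Subring.centralizer ({(show AddMonoid.End V from X.toAddMonoidHom)} : Set (AddMonoid.End V))
  let s : K →+* C :=
    { toFun := fun k => ⟨(show AddMonoid.End V from (k • (LinearMap.id : V →ₗ[K] V)).toAddMonoidHom),
        mem_cent X.toAddMonoidHom (k • (LinearMap.id : V →ₗ[K] V)).toAddMonoidHom (fun v => X.map_smul k v)⟩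
      map_one' := Subtype.ext (AddMonoidHom.ext fun v => one_smul K v)
      map_mul' := fun k l => Subtype.ext (AddMonoidHom.ext fun v => mul_smul k l v)
      map_zero' := Subtype.ext (AddMonoidHom.ext fun v => zero_smul K v)
      map_add' := fun k l => Subtype.ext (AddMonoidHom.ext fun v => add_smul k l v) }
  let t : C := ⟨(show AddMonoid.End V from T.toAddMonoidHom), mem_cent X.toAddMonoidHom T.toAddMonoidHom hT⟩
  have hpow : ∀ n (v : V), (show V →+ V from (t ^ n : C).1) v = T^[n] v := by
    intro n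
    induction n with
    | zero => intro v; rfl
    | succ n ih =>
      intro v
      rw [Function.iterate_succ_apply, ← ih, pow_succ]
      rfl
  have ht : t ^ (2 ^ a + 1) = 1 := by
    apply Subtype.ext
    apply AddMonoidHom.ext
    intro v
    exact (hpow _ v).trans (hTq v)
  obtain ⟨τ, hτ⟩ := trace_aux hf s hK ht
  exact ⟨τ, fun v => DFunLike.congr_fun (congrArg Subtype.val hτ) v⟩

/-! ## invariant planes, characteristic 2 -/

open Module

section

variable {K V : Type*} [Field K] [AddCommGroup V] [Module K V] (B : V →ₗ[K] V →ₗ[K] K) (T : V →ₗ[K] V)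

/-- pairwise orthogonal `T`-invariant nondegenerate planes `⟨u i, T (u i)⟩` -/
structure Pl {k : ℕ} (u : Fin k → V) : Prop where
  ne : ∀ i, B (u i) (T (u i)) ≠ 0
  o1 : ∀ i j, i ≠ j → B (u i) (u j) = 0
  o2 : ∀ i j, i ≠ j → B (u i) (T (u j)) = 0

/-- the setting -/
structure Sit (τ : K) : Prop where
  two : (2 : K) = 0
  alt : ∀ v, B v v = 0
  sym : ∀ u v, B u v = B v u
  iso : ∀ u v, B (T u) (T v) = B u v
  quad : ∀ v, T (T v) = τ • T v + v
  tne : τ ≠ 0
  nd : ∀ v, (∀ w, B w v = 0) → v = 0

variable {B T} {τ : K} (h : Sit B T τ)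

include h

theorem Sit.add_self (x : K) : x + x = 0 := by rw [← two_mul, h.two, zero_mul]

theorem Sit.neg (x : K) : -x = x := by rw [neg_eq_iff_add_eq_zero, h.add_self]

theorem Sit.vadd (v : V) : v + v = 0 := by rw [← two_smul K v, h.two, zero_smul]

theorem Sit.left (u v : V) : B (T u) v = B u (T v) + τ * B u v := by
  rw [← h.iso u (T v), h.quad, map_add, map_smul, smul_eq_mul, h.iso, add_right_comm, h.add_self, zero_add]

/-- solving for the coordinates -/
theorem coord {k : ℕ} {u : Fin k → V} (hu : Pl B T u) (α β : Fin k → K) :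
    ∃ v, (∀ j, B v (u j) = α j ∧ B v (T (u j)) = β j) ∧ ∀ w, (∀ i, B w (u i) = 0 ∧ B w (T (u i)) = 0) → B v w = 0 := by
  have e : ∀ w, B (∑ i, (B (u i) (T (u i)))⁻¹ • (β i • u i + α i • T (u i))) w =
      ∑ i, (B (u i) (T (u i)))⁻¹ * (β i * B (u i) w + α i * B (T (u i)) w) := by
    intro w
    rw [map_sum, LinearMap.sum_apply]
    refine Finset.sum_congr rfl fun i _ => ?_
    simp only [map_smul, map_add, LinearMap.smul_apply, LinearMap.add_apply, smul_eq_mul]
  refine ⟨∑ i, (B (u i) (T (u i)))⁻¹ • (β i • u i + α i • T (u i)), fun j => ?_, fun w hw => ?_⟩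
  swap
  · rw [e]
    refine Finset.sum_eq_zero fun i _ => ?_
    rw [h.sym (u i) w, h.sym (T (u i)) w, (hw i).1, (hw i).2, mul_zero, mul_zero, add_zero, mul_zero]
  constructor
  · rw [e, Finset.sum_eq_single j]
    · rw [h.alt, mul_zero, zero_add, h.sym (T (u j)), mul_left_comm, inv_mul_cancel₀ (hu.ne j), mul_one]
    · intro i _ hij
      rw [hu.o1 i j hij, h.sym (T (u i)), hu.o2 j i (Ne.symm hij), mul_zero, mul_zero, add_zero, mul_zero]
    · intro hj
      exact absurd (Finset.mem_univ j) hj
  · rw [e, Finset.sum_eq_single j]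
    · rw [h.alt, mul_zero, add_zero, mul_left_comm, inv_mul_cancel₀ (hu.ne j), mul_one]
    · intro i _ hij
      rw [hu.o2 i j hij, h.iso, hu.o1 i j hij, mul_zero, mul_zero, add_zero, mul_zero]
    · intro hj
      exact absurd (Finset.mem_univ j) hj

/-- the next plane -/
theorem next [FiniteDimensional K V] {k : ℕ} (hk : 2 * k < finrank K V) {u : Fin k → V} (hu : Pl B T u) :
    ∃ w, (∀ i, B w (u i) = 0 ∧ B w (T (u i)) = 0) ∧ B w (T w) ≠ 0 := by
  by_contra hcon
  push Not at hcon
  -- the complement is totally isotropic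
  have hT : ∀ w, (∀ i, B w (u i) = 0 ∧ B w (T (u i)) = 0) → (∀ i, B (T w) (u i) = 0 ∧ B (T w) (T (u i)) = 0) := by
    intro w hw i
    rw [h.left, h.iso, (hw i).1, (hw i).2, mul_zero, add_zero]
    exact ⟨rfl, rfl⟩
  have hiso : ∀ v w, (∀ i, B v (u i) = 0 ∧ B v (T (u i)) = 0) → (∀ i, B w (u i) = 0 ∧ B w (T (u i)) = 0) → B v w = 0 := by
    intro v w hv hw
    have h1 := hcon (v + w) (fun i => by
      rw [map_add, LinearMap.add_apply, LinearMap.add_apply, (hv i).1, (hv i).2, (hw i).1, (hw i).2, add_zero]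
      exact ⟨rfl, rfl⟩)
    have h2 := hcon v hv
    have h3 := hcon w hw
    simp only [map_add, LinearMap.add_apply] at h1
    rw [h2, h3, zero_add, add_zero] at h1
    -- `B v (T w) + B w (T v) = 0`
    have h4 : B (T v) w = B w (T v) := h.sym _ _
    have h5 := h.left v w
    rw [h4] at h5
    rw [h5] at h1
    have h6 : τ * B v w = 0 := by
      have h7 : B v (T w) + τ * B v w + B v (T w) = τ * B v w + (B v (T w) + B v (T w)) := by ring
      rw [h7, h.add_self, add_zero] at h1
      exact h1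
    exact (mul_eq_zero.1 h6).resolve_left h.tne
  -- a nonzero vector in the complement
  let Φ : V →ₗ[K] (Fin k → K) × (Fin k → K) :=
    (LinearMap.pi fun i => B.flip (u i)).prod (LinearMap.pi fun i => B.flip (T (u i)))
  have hΦ : ∀ w, Φ w = 0 ↔ ∀ i, B w (u i) = 0 ∧ B w (T (u i)) = 0 := by
    intro w
    constructor
    · intro h1 i
      exact ⟨congrFun (congrArg Prod.fst h1) i, congrFun (congrArg Prod.snd h1) i⟩
    · intro h1
      exact Prod.ext (funext fun i => (h1 i).1) (funext fun i => (h1 i).2)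
  have hker : LinearMap.ker Φ ≠ ⊥ := by
    apply LinearMap.ker_ne_bot_of_finrank_lt
    rw [Module.finrank_prod, Module.finrank_fin_fun]
    omega
  obtain ⟨w, hw, hw0⟩ := (Submodule.ne_bot_iff _).1 hker
  have hw' := (hΦ w).1 hw
  apply hw0
  apply h.nd
  intro v
  obtain ⟨v0, hv0, hv1⟩ := coord h hu (fun i => B v (u i)) (fun i => B v (T (u i)))
  have h1 : B (v - v0) w = 0 := by
    apply hiso _ _ _ hw'
    intro i
    rw [map_sub, LinearMap.sub_apply, LinearMap.sub_apply, (hv0 i).1, (hv0 i).2, sub_self, sub_self]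
    exact ⟨rfl, rfl⟩
  rw [map_sub, LinearMap.sub_apply, hv1 w hw', sub_zero] at h1
  exact h1

/-- adding a plane -/
theorem snoc {k : ℕ} {u : Fin k → V} (hu : Pl B T u) {w : V} (hw : ∀ i, B w (u i) = 0 ∧ B w (T (u i)) = 0)
    (hw' : B w (T w) ≠ 0) : Pl B T (Fin.snoc u w : Fin (k + 1) → V) := by
  have hT : ∀ i, B (u i) (T w) = 0 := by
    intro i
    rw [h.sym, h.left, (hw i).1, (hw i).2, mul_zero, add_zero]
  refine ⟨fun i => ?_, fun i j hij => ?_, fun i j hij => ?_⟩
  · refine Fin.lastCases ?_ (fun i => ?_) i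
    · rw [Fin.snoc_last]; exact hw'
    · rw [Fin.snoc_castSucc]; exact hu.ne i
  · revert hij
    refine Fin.lastCases ?_ (fun i => ?_) i <;> refine Fin.lastCases ?_ (fun j => ?_) j <;> intro hij
    · exact absurd rfl hij
    · rw [Fin.snoc_last, Fin.snoc_castSucc]; exact (hw j).1
    · rw [Fin.snoc_last, Fin.snoc_castSucc, h.sym]; exact (hw i).1
    · rw [Fin.snoc_castSucc, Fin.snoc_castSucc]
      exact hu.o1 i j fun e => hij (by rw [e])
  · revert hij
    refine Fin.lastCases ?_ (fun i => ?_) i <;> refine Fin.lastCases ?_ (fun j => ?_) j <;> intro hij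
    · exact absurd rfl hij
    · rw [Fin.snoc_last, Fin.snoc_castSucc]; exact (hw j).2
    · rw [Fin.snoc_last, Fin.snoc_castSucc]; exact hT i
    · rw [Fin.snoc_castSucc, Fin.snoc_castSucc]
      exact hu.o2 i j fun e => hij (by rw [e])

theorem exists_pl [FiniteDimensional K V] (k : ℕ) (hk : 2 * k ≤ finrank K V) : ∃ u : Fin k → V, Pl B T u := by
  induction k with
  | zero => exact ⟨Fin.elim0, ⟨fun i => i.elim0, fun i => i.elim0, fun i => i.elim0⟩⟩
  | succ k ih =>
    obtain ⟨u, hu⟩ := ih (by omega)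
    obtain ⟨w, hw, hw'⟩ := next h (by omega) hu
    exact ⟨_, snoc h hu hw hw'⟩

/-- for `2 k = dim V` only zero is orthogonal to all planes -/
theorem eq_zero_of_perp [FiniteDimensional K V] {k : ℕ} (hk : 2 * k = finrank K V) {u : Fin k → V} (hu : Pl B T u) {w : V}
    (hw : ∀ i, B w (u i) = 0 ∧ B w (T (u i)) = 0) : w = 0 := by
  let Φ : V →ₗ[K] (Fin k → K) × (Fin k → K) :=
    (LinearMap.pi fun i => B.flip (u i)).prod (LinearMap.pi fun i => B.flip (T (u i)))
  have hs : Function.Surjective Φ := by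
    rintro ⟨α, β⟩
    obtain ⟨v, hv, -⟩ := coord h hu α β
    exact ⟨v, Prod.ext (funext fun i => (hv i).1) (funext fun i => (hv i).2)⟩
  have hi : Function.Injective Φ := by
    rw [LinearMap.injective_iff_surjective_of_finrank_eq_finrank]
    · exact hs
    · rw [Module.finrank_prod, Module.finrank_fin_fun, ← hk]
      omega
  apply hi
  rw [map_zero]
  exact Prod.ext (funext fun i => (hw i).1) (funext fun i => (hw i).2)

omit h in
/-- projection to the plane `⟨u, T u⟩` -/
noncomputable def pj (B : V →ₗ[K] V →ₗ[K] K) (T : V →ₗ[K] V) (u : V) : V →ₗ[K] V :=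
  (B u (T u))⁻¹ • ((B.flip (T u)).smulRight u + (B.flip u).smulRight (T u))

omit h in
theorem pj_apply (u v : V) : pj B T u v = (B u (T u))⁻¹ • (B v (T u) • u + B v u • T u) := rfl

theorem pj_T (u v : V) : pj B T u (T v) = T (pj B T u v) := by
  rw [pj_apply, pj_apply, map_smul, map_add, map_smul, map_smul, h.iso, h.left, h.quad]
  congr 1
  rw [smul_add, add_smul, smul_smul, mul_comm τ]
  abel

theorem pj_self {u : V} (hu : B u (T u) ≠ 0) : pj B T u u = u := by
  rw [pj_apply, h.alt, zero_smul, add_zero, smul_smul, inv_mul_cancel₀ hu, one_smul]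

variable {k : ℕ} {u : Fin k → V} (hu : Pl B T u)
include hu

omit h in
theorem pj_ne {i j : Fin k} (hij : i ≠ j) : pj B T (u i) (u j) = 0 := by
  rw [pj_apply, hu.o1 j i (Ne.symm hij), hu.o2 j i (Ne.symm hij), zero_smul, zero_smul, add_zero, smul_zero]

theorem pj_pj {i j : Fin k} (hij : i ≠ j) (v : V) : pj B T (u i) (pj B T (u j) v) = 0 := by
  rw [pj_apply (u j) v, map_smul, map_add, map_smul, map_smul, pj_T h, pj_ne hu hij, map_zero, smul_zero, smul_zero,
    add_zero, smul_zero]

theorem sum_pj [FiniteDimensional K V] (hk : 2 * k = finrank K V) (v : V) : ∑ i, pj B T (u i) v = v := by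
  rw [← sub_eq_zero, ← neg_eq_zero, neg_sub]
  apply eq_zero_of_perp h hk hu
  have e : ∀ w, B (∑ i, pj B T (u i) v) w =
      ∑ i, (B (u i) (T (u i)))⁻¹ * (B v (T (u i)) * B (u i) w + B v (u i) * B (T (u i)) w) := by
    intro w
    rw [map_sum, LinearMap.sum_apply]
    refine Finset.sum_congr rfl fun i _ => ?_
    rw [pj_apply]
    simp only [map_smul, map_add, LinearMap.smul_apply, LinearMap.add_apply, smul_eq_mul]
  intro j
  rw [map_sub, LinearMap.sub_apply, LinearMap.sub_apply, sub_eq_zero, sub_eq_zero, e, e]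
  constructor
  · rw [Finset.sum_eq_single j]
    · rw [h.alt, mul_zero, zero_add, h.sym (T (u j)), mul_left_comm, inv_mul_cancel₀ (hu.ne j), mul_one]
    · intro i _ hij
      rw [hu.o1 i j hij, h.sym (T (u i)), hu.o2 j i (Ne.symm hij), mul_zero, mul_zero, add_zero, mul_zero]
    · intro hj
      exact absurd (Finset.mem_univ j) hj
  · rw [Finset.sum_eq_single j]
    · rw [h.alt, mul_zero, add_zero, mul_left_comm, inv_mul_cancel₀ (hu.ne j), mul_one]
    · intro i _ hij
      rw [hu.o2 i j hij, h.iso, hu.o1 i j hij, mul_zero, mul_zero, add_zero, mul_zero]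
    · intro hj
      exact absurd (Finset.mem_univ j) hj

omit hu

/-- the transvection with centre `u` conjugates `T` to `T + τ π_u` -/
theorem conj_eq {u : V} (hu : B u (T u) ≠ 0) {g : V → V} (hg : ∀ v, g v = v + (τ * (B u (T u))⁻¹ * B v u) • u) (v : V) :
    g (T (g v)) = T v + τ • pj B T u v := by
  rw [hg v, map_add, map_smul, hg, map_add, LinearMap.add_apply, map_smul, LinearMap.smul_apply, smul_eq_mul, pj_apply, h.left v u,
    h.sym (T u) u]
  have h1 : τ * (B u (T u))⁻¹ * B v u * B u (T u) = τ * B v u := by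
    field_simp
  rw [h1, add_assoc (B v (T u)), h.add_self, add_zero]
  module

omit h in
/-- three planes: the product of the three conjugates is `T` -/
theorem prod_eq (h : Sit B T τ) {u : Fin 3 → V} [FiniteDimensional K V] (hk : finrank K V = 6) (hu : Pl B T u) (v : V) :
    (T + τ • pj B T (u 0)) ((T + τ • pj B T (u 1)) ((T + τ • pj B T (u 2)) v)) = T v := by
  have hs := sum_pj h hu (by omega) v
  rw [Fin.sum_univ_three] at hs
  simp only [LinearMap.add_apply, LinearMap.smul_apply, map_add, map_smul, pj_T h, pj_pj h hu (show (0 : Fin 3) ≠ 1 by decide),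
    pj_pj h hu (show (1 : Fin 3) ≠ 2 by decide), pj_pj h hu (show (0 : Fin 3) ≠ 2 by decide), map_zero, smul_zero, add_zero]
  have h2 : T (T (T v)) + τ • T (T (pj B T (u 0) v)) + τ • T (T (pj B T (u 1) v)) + τ • T (T (pj B T (u 2) v)) =
      T (T (T v)) + τ • T (T (pj B T (u 0) v + pj B T (u 1) v + pj B T (u 2) v)) := by
    simp only [map_add, smul_add]
    abel
  rw [h2, hs, h.quad (T v), add_right_comm, h.vadd, zero_add]

end

end Cfsg.Agent.H372.O8S
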